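import Mathlib
import Cfsg.Prelude.Def_Characters
import Cfsg.Agent.Lib.Helper3.Perm
import Cfsg.Agent.Lib.Helper3.Induction
import Cfsg.Agent.Lib.Helper15.PermChar

set_option autoImplicit false
set_option linter.unusedSectionVars false

/-!
# The rank of a transitive group as the norm of the permutation character; suborbit counting
-/

namespace Cfsg.Agent.Lib.Helper58

open Cfsg Cfsg.Agent.Lib.Helper3
open scoped ComplexConjugate

variable {G : Type*} [Group G] [Fintype G] {Ω : Type*} [Fintype Ω] [MulAction G Ω]

/-- `⟨π, π⟩` is the rank. -/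
theorem classInner_perm_self_eq_rank [MulAction.IsPretransitive G Ω] (a : Ω) :
    classInner (fun g : G => (Nat.card (MulAction.fixedBy Ω g) : ℂ))
      (fun g : G => (Nat.card (MulAction.fixedBy Ω g) : ℂ)) =
      (Nat.card (MulAction.orbitRel.Quotient (MulAction.stabilizer G a) Ω) : ℂ) := by
  classical
  have h1 : (fun g : G => (Nat.card (MulAction.fixedBy Ω g) : ℂ)) =
      indFun (MulAction.stabilizer G a) (fun _ => 1) := by
    ext g
    exact Cfsg.Agent.Lib.Helper15.card_fixedBy_eq_indFun Ω a g
  have hcl : IsClassFunction G (fun g : G => (Nat.card (MulAction.fixedBy Ω g) : ℂ)) :=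
    IsCharacter.isClassFunction (isCharacter_card_fixedBy Ω)
  nth_rw 1 [h1]
  rw [frobenius_reciprocity _ _ hcl, ← classInner_conj_symm]
  have h2 := classInner_card_fixedBy_one (G := MulAction.stabilizer G a) Ω
  have h3 : (fun h : MulAction.stabilizer G a => (Nat.card (MulAction.fixedBy Ω (h : G)) : ℂ)) =
      fun h : MulAction.stabilizer G a => (Nat.card (MulAction.fixedBy Ω h) : ℂ) := rfl
  rw [h3, h2, Complex.conj_natCast]

/-- norm of a character as the sum of the squares of the multiplicities -/
theorem classInner_self_eq_sum_sq [Fintype (IrrCharacter G)] {Φ : G → ℂ} (hΦ : IsCharacter G Φ)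
    (m : IrrCharacter G → ℕ) (hm : ∀ χ : IrrCharacter G, classInner Φ (χ : G → ℂ) = m χ) :
    classInner Φ Φ = ((∑ χ : IrrCharacter G, m χ ^ 2 : ℕ) : ℂ) := by
  rw [classInner_eq_sum_coeff (IsCharacter.isClassFunction hΦ)]
  push_cast
  apply Finset.sum_congr rfl
  intro χ _
  rw [← classInner_conj_symm Φ, hm]
  simp [sq]

/-- degree of a character as the sum of multiplicities times degrees -/
theorem apply_one_eq_sum [Fintype (IrrCharacter G)] {Φ : G → ℂ} (hΦ : IsCharacter G Φ) :
    Φ 1 = ∑ χ : IrrCharacter G, classInner Φ (χ : G → ℂ) * (χ : G → ℂ) 1 := by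
  conv_lhs => rw [classFunction_expansion (IsCharacter.isClassFunction hΦ)]
  simp [Finset.sum_apply]

omit [Fintype G] in
/-- The degree is the sum of the subdegrees. -/
theorem card_eq_sum_suborbits (a : Ω)
    [Fintype (MulAction.orbitRel.Quotient (MulAction.stabilizer G a) Ω)] :
    Fintype.card Ω = ∑ ω : MulAction.orbitRel.Quotient (MulAction.stabilizer G a) Ω,
      Nat.card (MulAction.orbit (MulAction.stabilizer G a) ω.out) := by
  have h1 := Nat.card_congr (MulAction.selfEquivSigmaOrbits (MulAction.stabilizer G a) Ω)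
  rw [Nat.card_sigma, Nat.card_eq_fintype_card] at h1
  exact h1

omit [Fintype G] [Fintype Ω] in
theorem orbit_stabilizer_self (a : Ω) :
    MulAction.orbit (MulAction.stabilizer G a) a = {a} := by
  ext x
  rw [MulAction.mem_orbit_iff, Set.mem_singleton_iff]
  constructor
  · rintro ⟨s, rfl⟩
    exact s.2
  · rintro rfl
    exact ⟨1, one_smul _ _⟩

omit [Fintype G] [Fintype Ω] in
theorem out_eq_self_iff (a : Ω) (ω : MulAction.orbitRel.Quotient (MulAction.stabilizer G a) Ω) :
    ω.out = a ↔ ω = Quotient.mk'' a := by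
  constructor
  · intro h
    have h1 := (Quotient.out_eq' ω).symm
    rw [h1]
    exact congrArg _ h
  · intro h
    have h1 : (Quotient.mk'' ω.out : MulAction.orbitRel.Quotient (MulAction.stabilizer G a) Ω) =
        Quotient.mk'' a := by rw [Quotient.out_eq', h]
    rw [Quotient.eq''] at h1
    have h2 : ω.out ∈ MulAction.orbit (MulAction.stabilizer G a) a := h1
    rw [orbit_stabilizer_self] at h2
    exact h2

omit [Fintype G] [Fintype Ω] in
theorem orbit_out_mk (a b : Ω) :
    MulAction.orbit (MulAction.stabilizer G a)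
      (Quotient.mk'' b : MulAction.orbitRel.Quotient (MulAction.stabilizer G a) Ω).out =
      MulAction.orbit (MulAction.stabilizer G a) b := by
  apply MulAction.orbit_eq_iff.mpr
  have h1 : (Quotient.mk'' (Quotient.mk'' b :
      MulAction.orbitRel.Quotient (MulAction.stabilizer G a) Ω).out :
      MulAction.orbitRel.Quotient (MulAction.stabilizer G a) Ω) = Quotient.mk'' b :=
    Quotient.out_eq' _
  rw [Quotient.eq''] at h1
  exact h1

end Cfsg.Agent.Lib.Helper58
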