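import Mathlib
set_option autoImplicit false

/-!
# Permutations of a vector space over `ZMod p` (p odd) which are affine on triples are affine
-/

namespace Cfsg.Agent.Lib.Helper58

/-- Linearly independent families of the same shape are conjugate under `GL`. -/
theorem exists_linearEquiv_of_linearIndependent {K V ι : Type*} [Field K] [AddCommGroup V]
    [Module K V] [Finite ι] {u w : ι → V} (hu : LinearIndependent K u)
    (hw : LinearIndependent K w) : ∃ A : V ≃ₗ[K] V, ∀ i, A (u i) = w i := by
  classical
  let f := hu.linearCombinationEquiv.symm ≪≫ₗ hw.linearCombinationEquiv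
  have : FiniteDimensional K (Submodule.span K (Set.range u)) :=
    FiniteDimensional.span_of_finite K (Set.finite_range _)
  obtain ⟨g, hg⟩ := Submodule.exists_linearEquiv_restrict_eq f
  refine ⟨g, fun i => ?_⟩
  have q : (hu.linearCombinationEquiv (Finsupp.single i 1) : V) = u i := by simp
  have q' : (hw.linearCombinationEquiv (Finsupp.single i 1) : V) = w i := by simp
  rw [← q, ← hg, ← q']
  simp [f]

/-- A permutation of a `ZMod p`-vector space, `p` odd, agreeing with an affine map on every
triple of points is affine. -/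
theorem affine_of_triples (p : ℕ) [Fact p.Prime] (hp : p ≠ 2) {V : Type*} [AddCommGroup V]
    [Module (ZMod p) V] (σ : Equiv.Perm V)
    (h : ∀ t : Fin 3 → V, ∃ (A : V ≃ₗ[ZMod p] V) (b : V), ∀ i, σ (t i) = A (t i) + b) :
    ∃ (A : V ≃ₗ[ZMod p] V) (b : V), ∀ x, σ x = A x + b := by
  have h2 : (2 : ZMod p) ≠ 0 := by
    intro h0
    have : ((2 : ℕ) : ZMod p) = 0 := by exact_mod_cast h0
    rw [ZMod.natCast_eq_zero_iff] at this
    exact hp ((Nat.prime_dvd_prime_iff_eq Fact.out Nat.prime_two).1 this)
  -- doubling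
  have hdouble : ∀ z : V, σ (z + z) - σ 0 = (σ z - σ 0) + (σ z - σ 0) := by
    intro z
    obtain ⟨A, b, hA⟩ := h ![0, z, z + z]
    have h0 := hA 0
    have h1 := hA 1
    have h2 := hA 2
    simp only [Matrix.cons_val_zero, Matrix.cons_val_one, Matrix.cons_val, map_zero, map_add,
      zero_add] at h0 h1 h2
    rw [h0, h1, h2]; abel
  -- midpoints
  have hmid : ∀ x y z : V, z + z = x + y → σ z + σ z = σ x + σ y := by
    intro x y z hz
    obtain ⟨A, b, hA⟩ := h ![x, y, z]
    have h0 := hA 0
    have h1 := hA 1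
    have h2 := hA 2
    simp only [Matrix.cons_val_zero, Matrix.cons_val_one, Matrix.cons_val] at h0 h1 h2
    have : A z + A z = A x + A y := by rw [← map_add, ← map_add, hz]
    rw [h0, h1, h2]
    calc A z + b + (A z + b) = (A z + A z) + (b + b) := by abel
      _ = A x + b + (A y + b) := by rw [this]; abel
  have hadd : ∀ x y : V, σ (x + y) - σ 0 = (σ x - σ 0) + (σ y - σ 0) := by
    intro x y
    set z : V := (2 : ZMod p)⁻¹ • (x + y) with hz
    have hzz : z + z = x + y := by
      rw [← two_smul (ZMod p) z, hz, smul_smul, mul_inv_cancel₀ h2, one_smul]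
    rw [← hzz, hdouble z]
    have := hmid x y z hzz
    calc σ z - σ 0 + (σ z - σ 0) = (σ z + σ z) - σ 0 - σ 0 := by abel
      _ = σ x - σ 0 + (σ y - σ 0) := by rw [this]; abel
  let f : V →+ V := AddMonoidHom.mk' (fun x => σ x - σ 0) hadd
  let L : V →ₗ[ZMod p] V := f.toZModLinearMap p
  have hL : ∀ x, L x = σ x - σ 0 := fun x => rfl
  have hbij : Function.Bijective L := by
    constructor
    · intro x y hxy
      rw [hL, hL, sub_left_inj] at hxy
      exact σ.injective hxy
    · intro y
      obtain ⟨x, hx⟩ := σ.surjective (y + σ 0)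
      exact ⟨x, by rw [hL, hx, add_sub_cancel_right]⟩
  refine ⟨LinearEquiv.ofBijective L hbij, σ 0, fun x => ?_⟩
  rw [LinearEquiv.ofBijective_apply, hL, sub_add_cancel]

end Cfsg.Agent.Lib.Helper58
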