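import Cfsg.Agent.Lib.Helper58.EP2
set_option autoImplicit false

/-!
# Extremely primitive groups: the "holomorph of a simple group" configuration is impossible

`hs_false`: let `G` act faithfully on a finite set `Ω` such that the point stabiliser `G_α` is
primitive on each of its orbits.  There is no non-abelian simple subgroup `T ≤ G`, transitive on `Ω`,
centralised by a transitive subgroup `C`, such that every conjugate of `T` under `G_α` is `T` or
commutes with `T`.
-/

namespace Cfsg.Agent.Lib.Helper58.EP1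

open MulAction Subgroup
open scoped Pointwise

variable {G : Type*} [Group G] {Ω : Type*} [MulAction G Ω]

/-- The configuration. -/
structure HS (α : Ω) (T C : Subgroup G) : Prop where
  trT : ∀ ω : Ω, ∃ t ∈ T, t • α = ω
  trC : ∀ ω : Ω, ∃ c ∈ C, c • α = ω
  comm : ∀ t ∈ T, ∀ c ∈ C, t * c = c * t
  conj : ∀ h : G, h • α = α → (∀ t ∈ T, h * t * h⁻¹ ∈ T) ∨
    (∀ t ∈ T, ∀ s ∈ T, (h * t * h⁻¹) * s = s * (h * t * h⁻¹))
  ctr : ∀ z ∈ T, (∀ x ∈ T, x * z = z * x) → z = 1

namespace HS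

variable {α : Ω} {T C : Subgroup G} (S : HS α T C)
include S

theorem reg [FaithfulSMul G Ω] {t s : G} (ht : t ∈ T) (hs : s ∈ T) (h : t • α = s • α) : t = s := by
  have hu : s⁻¹ * t ∈ T := T.mul_mem (T.inv_mem hs) ht
  have huα : (s⁻¹ * t) • α = α := by rw [mul_smul, h, inv_smul_smul]
  have : s⁻¹ * t = 1 := by
    apply FaithfulSMul.eq_of_smul_eq_smul (α := Ω)
    intro ω
    obtain ⟨c, hc, rfl⟩ := S.trC ω
    rw [one_smul, smul_smul, S.comm _ hu c hc, mul_smul, huα]
  rw [inv_mul_eq_one] at this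
  exact this.symm

theorem exists_d {x : G} (_hx : x ∈ T) :
    ∃ d : G, d • α = α ∧ ∀ y ∈ T, d • (y • α) = (x * y * x⁻¹) • α := by
  obtain ⟨c, hc, hcα⟩ := S.trC (x⁻¹ • α)
  refine ⟨x * c, by rw [mul_smul, hcα, smul_inv_smul], ?_⟩
  intro y hy
  rw [smul_smul, mul_assoc, ← S.comm y hy c hc, ← mul_assoc, mul_smul, hcα, ← mul_smul]

/-- the conjugate `v = g t g⁻¹` of `t ∈ T` by `g ∈ G_α ∩ G_{tα}`. -/
theorem conj_facts [FaithfulSMul G Ω] {g t : G} (hg : g • α = α) (ht : t ∈ T)
    (hgt : g • (t • α) = t • α) :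
    (g * t * g⁻¹) • α = t • α ∧ Commute (g * t * g⁻¹) t := by
  have hginv : g⁻¹ • α = α := by rw [inv_smul_eq_iff, hg]
  have h1 : (g * t * g⁻¹) • α = t • α := by rw [mul_smul, mul_smul, hginv, hgt]
  refine ⟨h1, ?_⟩
  rcases S.conj g hg with h | h
  · rw [S.reg (h t ht) ht h1]
  · exact h t ht t ht

end HS

/-- Maximality of two-point stabilisers in the point stabiliser. -/
theorem max_of_hep {α : Ω}
    (hep : ∀ (ω : Ω), IsPreprimitive (stabilizer G α) (orbit (stabilizer G α) ω))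
    {ω : Ω} (hmove : ∃ g : G, g • α = α ∧ g • ω ≠ ω) (L : Subgroup G)
    (h1 : ∀ g, g • α = α → g • ω = ω → g ∈ L) (h2 : ∀ g ∈ L, g • α = α) :
    (∀ g ∈ L, g • ω = ω) ∨ (∀ g, g • α = α → g ∈ L) := by
  have hprim := hep ω
  obtain ⟨g₀, hg₀, hg₀ω⟩ := hmove
  have hnt : Nontrivial (orbit (stabilizer G α) ω) :=
    ⟨⟨⟨ω, mem_orbit_self ω⟩, ⟨g₀ • ω, ⟨⟨g₀, hg₀⟩, rfl⟩⟩, fun h => hg₀ω (congrArg Subtype.val h).symm⟩⟩
  have hco := IsPreprimitive.isCoatom_stabilizer_of_isPreprimitive (G := stabilizer G α)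
    (⟨ω, mem_orbit_self ω⟩ : orbit (stabilizer G α) ω)
  have hle : stabilizer (stabilizer G α) (⟨ω, mem_orbit_self ω⟩ : orbit (stabilizer G α) ω)
      ≤ L.subgroupOf (stabilizer G α) := by
    intro g hg
    rw [mem_subgroupOf]
    apply h1 _ g.2
    exact congrArg Subtype.val (show g • (⟨ω, mem_orbit_self ω⟩ : orbit (stabilizer G α) ω) = _ from hg)
  rcases hle.eq_or_lt with heq | hlt
  · left
    intro g hg
    have : (⟨g, h2 g hg⟩ : stabilizer G α) ∈ L.subgroupOf (stabilizer G α) := by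
      rw [mem_subgroupOf]; exact hg
    rw [← heq] at this
    exact congrArg Subtype.val
      (show (⟨g, h2 g hg⟩ : stabilizer G α) • (⟨ω, mem_orbit_self ω⟩ : orbit (stabilizer G α) ω) = _
        from this)
  · right
    intro g hg
    have htop := hco.2 _ hlt
    have : (⟨g, hg⟩ : stabilizer G α) ∈ L.subgroupOf (stabilizer G α) := by rw [htop]; trivial
    rw [mem_subgroupOf] at this
    exact this

namespace HS

variable {α : Ω} {T C : Subgroup G} (S : HS α T C)
include S

theorem exists_move [FaithfulSMul G Ω] {t : G} (ht : t ∈ T) (ht1 : t ≠ 1) :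
    ∃ g : G, g • α = α ∧ g • (t • α) ≠ t • α := by
  by_contra hcon
  push Not at hcon
  apply ht1
  apply S.ctr t ht
  intro x hx
  obtain ⟨d, hd, hdy⟩ := S.exists_d hx
  have h1 := hcon d hd
  rw [hdy t ht] at h1
  have := S.reg (T.mul_mem (T.mul_mem hx ht) (T.inv_mem hx)) ht h1
  exact mul_inv_eq_iff_eq_mul.1 this

theorem F3 [FaithfulSMul G Ω]
    (hep : ∀ (ω : Ω), IsPreprimitive (stabilizer G α) (orbit (stabilizer G α) ω))
    {t : G} (ht : t ∈ T) (k : ℕ) (htk : t ^ k ≠ 1) {x : G} (hx : x ∈ T)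
    (hxt : x * t ^ k = t ^ k * x) : x * t = t * x := by
  have ht1 : t ≠ 1 := by
    intro h; rw [h, one_pow] at htk; exact htk rfl
  have htkT : t ^ k ∈ T := T.pow_mem ht k
  have hM := max_of_hep hep (S.exists_move ht ht1) (stabilizer G α ⊓ stabilizer G (t ^ k • α))
    (by
      intro g hg hgt
      refine mem_inf.2 ⟨hg, ?_⟩
      obtain ⟨h1, h2⟩ := S.conj_facts hg ht hgt
      have hginv : g⁻¹ • α = α := by rw [inv_smul_eq_iff, hg]
      have h3 : ∀ j : ℕ, (g * t * g⁻¹) ^ j • α = t ^ j • α := by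
        intro j
        induction j with
        | zero => simp
        | succ j ih =>
          rw [pow_succ, mul_smul, h1, ← mul_smul, (h2.pow_left j).eq, mul_smul, ih, ← mul_smul,
            ← pow_succ']
      show g • (t ^ k • α) = t ^ k • α
      calc g • (t ^ k • α) = (g * t ^ k * g⁻¹) • α := by rw [mul_smul, mul_smul, hginv]
        _ = (g * t * g⁻¹) ^ k • α := by rw [conj_pow]
        _ = t ^ k • α := h3 k)
    (fun g hg => (mem_inf.1 hg).1)
  obtain ⟨d, hd, hdy⟩ := S.exists_d hx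
  rcases hM with hM | hM
  · have hdL : d ∈ stabilizer G α ⊓ stabilizer G (t ^ k • α) := by
      refine mem_inf.2 ⟨hd, ?_⟩
      show d • (t ^ k • α) = t ^ k • α
      rw [hdy _ htkT, hxt, mul_inv_cancel_right]
    have h1 := hM d hdL
    rw [hdy t ht] at h1
    have := S.reg (T.mul_mem (T.mul_mem hx ht) (T.inv_mem hx)) ht h1
    exact mul_inv_eq_iff_eq_mul.1 this
  · exfalso
    apply htk
    apply S.ctr _ htkT
    intro y hy
    obtain ⟨d', hd', hdy'⟩ := S.exists_d hy
    have h1 : d' • (t ^ k • α) = t ^ k • α := (mem_inf.1 (hM d' hd')).2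
    rw [hdy' _ htkT] at h1
    have := S.reg (T.mul_mem (T.mul_mem hy htkT) (T.inv_mem hy)) htkT h1
    exact mul_inv_eq_iff_eq_mul.1 this

end HS

namespace HS

variable {α : Ω} {T C : Subgroup G} (S : HS α T C)
include S

theorem F1 [FaithfulSMul G Ω] [Finite Ω] [IsSimpleGroup T]
    (hep : ∀ (ω : Ω), IsPreprimitive (stabilizer G α) (orbit (stabilizer G α) ω))
    {t : G} (ht : t ∈ T) (ht1 : t ≠ 1) {x : G} (hx : x ∈ T)
    (hxn : ∀ c ∈ T, c * t = t * c → (x * c * x⁻¹) * t = t * (x * c * x⁻¹)) : x * t = t * x := by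
  set B : Set Ω := {ω | ∃ c ∈ T, c * t = t * c ∧ c • α = ω} with hB
  have hBfin : B.Finite := Set.toFinite B
  have hM := max_of_hep hep (S.exists_move ht ht1) (stabilizer G α ⊓ stabilizer G B)
    (by
      intro g hg hgt
      refine mem_inf.2 ⟨hg, ?_⟩
      rw [mem_stabilizer_set_iff_smul_set_subset hBfin]
      rintro _ ⟨_, ⟨c, hc, hct, rfl⟩, rfl⟩
      obtain ⟨h1, -⟩ := S.conj_facts hg ht hgt
      have hginv : g⁻¹ • α = α := by rw [inv_smul_eq_iff, hg]
      have h2 : g • (c • α) = (g * c * g⁻¹) • α := by rw [mul_smul, mul_smul, hginv]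
      have h3 : (g * c * g⁻¹) * (g * t * g⁻¹) = (g * t * g⁻¹) * (g * c * g⁻¹) := by
        calc (g * c * g⁻¹) * (g * t * g⁻¹) = g * (c * t) * g⁻¹ := by group
          _ = g * (t * c) * g⁻¹ := by rw [hct]
          _ = (g * t * g⁻¹) * (g * c * g⁻¹) := by group
      show g • (c • α) ∈ B
      rw [h2]
      rcases S.conj g hg with h | h
      · have hv : g * t * g⁻¹ = t := S.reg (h t ht) ht h1
        rw [hv] at h3
        exact ⟨g * c * g⁻¹, h c hc, h3, rfl⟩
      · obtain ⟨y, hy, hyα⟩ := S.trT ((g * c * g⁻¹) • α)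
        refine ⟨y, hy, ?_, hyα⟩
        apply S.reg (T.mul_mem hy ht) (T.mul_mem ht hy)
        calc (y * t) • α = y • ((g * t * g⁻¹) • α) := by rw [mul_smul, h1]
          _ = (g * t * g⁻¹) • (y • α) := by rw [← mul_smul, ← h t ht y hy, mul_smul]
          _ = (g * t * g⁻¹) • ((g * c * g⁻¹) • α) := by rw [hyα]
          _ = (g * c * g⁻¹) • ((g * t * g⁻¹) • α) := by rw [← mul_smul, ← h3, mul_smul]
          _ = (g * c * g⁻¹) • (t • α) := by rw [h1]
          _ = t • ((g * c * g⁻¹) • α) := by rw [← mul_smul, h c hc t ht, mul_smul]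
          _ = (t * y) • α := by rw [← hyα, mul_smul])
    (fun g hg => (mem_inf.1 hg).1)
  rcases hM with hM | hM
  · obtain ⟨d, hd, hdy⟩ := S.exists_d hx
    have hdL : d ∈ stabilizer G α ⊓ stabilizer G B := by
      refine mem_inf.2 ⟨hd, ?_⟩
      rw [mem_stabilizer_set_iff_smul_set_subset hBfin]
      rintro _ ⟨_, ⟨c, hc, hct, rfl⟩, rfl⟩
      show d • (c • α) ∈ B
      rw [hdy c hc]
      exact ⟨x * c * x⁻¹, T.mul_mem (T.mul_mem hx hc) (T.inv_mem hx), hxn c hc hct, rfl⟩
    have h1 := hM d hdL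
    rw [hdy t ht] at h1
    have := S.reg (T.mul_mem (T.mul_mem hx ht) (T.inv_mem hx)) ht h1
    exact mul_inv_eq_iff_eq_mul.1 this
  · exfalso
    -- the centraliser of `t` in `T` is normal
    have hnorm : (centralizer ({(⟨t, ht⟩ : T)} : Set T)).Normal := by
      constructor
      intro c hc y
      rw [mem_centralizer_singleton_iff] at hc ⊢
      have hc' : (c : G) * t = t * c := congrArg Subtype.val hc
      obtain ⟨d, hd, hdy⟩ := S.exists_d y.2
      have hdB : d ∈ stabilizer G B := (mem_inf.1 (hM d hd)).2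
      have h1 : d • ((c : G) • α) ∈ B := by
        have h0 : d • B = B := hdB
        rw [← h0]
        exact Set.smul_mem_smul_set ⟨c, c.2, hc', rfl⟩
      rw [hdy c c.2] at h1
      obtain ⟨c₂, hc₂, hc₂t, hc₂α⟩ := h1
      have h2 := S.reg hc₂ (T.mul_mem (T.mul_mem y.2 c.2) (T.inv_mem y.2)) hc₂α
      apply Subtype.ext
      show (y : G) * c * (y : G)⁻¹ * t = t * ((y : G) * c * (y : G)⁻¹)
      rw [← h2, hc₂t]
    rcases IsSimpleGroup.eq_bot_or_eq_top_of_normal _ hnorm with h | h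
    · have : (⟨t, ht⟩ : T) ∈ centralizer ({(⟨t, ht⟩ : T)} : Set T) :=
        mem_centralizer_singleton_iff.2 rfl
      rw [h, mem_bot] at this
      exact ht1 (congrArg Subtype.val this)
    · apply ht1
      apply S.ctr t ht
      intro y hy
      have : (⟨y, hy⟩ : T) ∈ centralizer ({(⟨t, ht⟩ : T)} : Set T) := by rw [h]; trivial
      rw [mem_centralizer_singleton_iff] at this
      exact congrArg Subtype.val this

/-- The configuration is impossible. -/
theorem false [Finite G] [FaithfulSMul G Ω] [Finite Ω] [IsSimpleGroup T]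
    (hep : ∀ (ω : Ω), IsPreprimitive (stabilizer G α) (orbit (stabilizer G α) ω))
    (hnc : ¬ ∀ a ∈ T, ∀ b ∈ T, a * b = b * a) : False := by
  apply EP2.no_rigid_centralizers (T := T) (fun h => hnc (fun a ha b hb =>
    congrArg Subtype.val (h ⟨a, ha⟩ ⟨b, hb⟩)))
  constructor
  · intro t ht1 x hx
    apply Subtype.ext
    apply S.F1 hep t.2 (fun h => ht1 (Subtype.ext h)) x.2
    intro c hc hct
    exact congrArg Subtype.val (hx ⟨c, hc⟩ (Subtype.ext hct)).eq
  · intro t k htk x hx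
    apply Subtype.ext
    apply S.F3 hep t.2 k (fun h => htk (Subtype.ext h)) x.2
    exact congrArg Subtype.val hx.eq

end HS

end Cfsg.Agent.Lib.Helper58.EP1
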