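import Mathlib
set_option autoImplicit false

/-!
# A finite non-abelian simple group cannot have "rigid" centralisers

`no_rigid_centralizers`: let `T` be a finite non-abelian simple group.  It is impossible that
* (F1) every centraliser `C_T(t)`, `t ≠ 1`, is self-normalising, and
* (F3) `C_T(t ^ k) = C_T(t)` whenever `t ^ k ≠ 1`.

(Used for the "holomorph of a simple group" case of the theorem on extremely primitive groups.)
-/

namespace Cfsg.Agent.Lib.Helper58.EP2

open Subgroup

variable {T : Type*} [Group T]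

/-- The hypotheses (F1), (F3). -/
structure Rigid (T : Type*) [Group T] : Prop where
  F1 : ∀ t : T, t ≠ 1 → ∀ x : T, (∀ c, Commute c t → Commute (x * c * x⁻¹) t) → Commute x t
  F3 : ∀ (t : T) (k : ℕ), t ^ k ≠ 1 → ∀ x, Commute x (t ^ k) → Commute x t

theorem center_trivial [IsSimpleGroup T] (hnc : ¬ ∀ a b : T, a * b = b * a) (z : T)
    (hz : ∀ x, Commute x z) : z = 1 := by
  rcases IsSimpleGroup.eq_bot_or_eq_top_of_normal (center T) inferInstance with h | h
  · have : z ∈ center T := by
      rw [mem_center_iff]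
      intro g
      exact hz g
    rwa [h, mem_bot] at this
  · exfalso
    apply hnc
    intro a b
    have : b ∈ center T := by rw [h]; trivial
    rw [mem_center_iff] at this
    exact this a

/-- Burnside's transfer theorem kills `N(P) ≤ C(P)` in a non-abelian simple group. -/
theorem burnside [Finite T] [IsSimpleGroup T] (hnc : ¬ ∀ a b : T, a * b = b * a) (p : ℕ)
    [Fact p.Prime] (P : Sylow p T) (hP : (P : Subgroup T) ≠ ⊥)
    (h : normalizer (P : Set T) ≤ centralizer (P : Set T)) : False := by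
  have hc := MonoidHom.ker_transferSylow_isComplement' P h
  have hcard := hc.card_mul_card
  rcases IsSimpleGroup.eq_bot_or_eq_top_of_normal (MonoidHom.transferSylow P h).ker inferInstance with hk | hk
  · rw [hk, card_bot, one_mul] at hcard
    have htop : (P : Subgroup T) = ⊤ := (card_eq_iff_eq_top _).1 hcard
    apply hnc
    intro a b
    have ha : a ∈ normalizer (P : Set T) := le_normalizer (by rw [htop]; trivial)
    have hb : b ∈ (P : Subgroup T) := by rw [htop]; trivial
    have := h ha
    rw [mem_centralizer_iff] at this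
    exact (this b hb).symm
  · rw [hk, card_top] at hcard
    have h1 : Nat.card (P : Subgroup T) = 1 := by
      have hpos : 0 < Nat.card T := Nat.card_pos
      exact Nat.eq_of_mul_eq_mul_left hpos (by rw [hcard, mul_one])
    exact hP ((card_eq_one).1 h1)

namespace Rigid

variable (R : Rigid T)
include R

/-- (F2): commuting elements of coprime orders have the same centraliser. -/
theorem F2' {t u : T} (ht : t ≠ 1) (hu : u ≠ 1) (htu : Commute t u)
    (hcop : (orderOf t).Coprime (orderOf u)) {x : T} (hx : Commute x t) : Commute x u := by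
  have h1 : (t * u) ^ (orderOf u) = t ^ (orderOf u) := by
    rw [htu.mul_pow, pow_orderOf_eq_one, mul_one]
  have h2 : (t * u) ^ (orderOf t) = u ^ (orderOf t) := by
    rw [htu.mul_pow, pow_orderOf_eq_one, one_mul]
  have h3 : t ^ (orderOf u) ≠ 1 := by
    intro h
    have hd := orderOf_dvd_of_pow_eq_one h
    have : orderOf t ∣ 1 := by
      have := Nat.dvd_gcd dvd_rfl hd
      rwa [hcop] at this
    exact ht (orderOf_eq_one_iff.1 (Nat.dvd_one.1 this))
  have h4 : u ^ (orderOf t) ≠ 1 := by
    intro h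
    have hd := orderOf_dvd_of_pow_eq_one h
    have : orderOf u ∣ 1 := by
      have := Nat.dvd_gcd hd dvd_rfl
      rwa [hcop] at this
    exact hu (orderOf_eq_one_iff.1 (Nat.dvd_one.1 this))
  have h5 : Commute x (t * u) := by
    apply R.F3 (t * u) (orderOf u) (by rw [h1]; exact h3)
    rw [h1]
    exact hx.pow_right _
  apply R.F3 u (orderOf t) h4
  rw [← h2]
  exact h5.pow_right _

theorem F2 {t u : T} (ht : t ≠ 1) (hu : u ≠ 1) (htu : Commute t u)
    (hcop : (orderOf t).Coprime (orderOf u)) (x : T) : Commute x t ↔ Commute x u :=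
  ⟨fun h => R.F2' ht hu htu hcop h, fun h => R.F2' hu ht htu.symm hcop.symm h⟩

end Rigid

theorem isPGroup_of_prime_orders [Finite T] (p : ℕ) [Fact p.Prime] (K : Subgroup T)
    (h : ∀ x ∈ K, (orderOf x).Prime → orderOf x = p) : IsPGroup p K := by
  have hcard : Nat.card K = p ^ (Nat.card K).primeFactorsList.length := by
    apply Nat.eq_prime_pow_of_unique_prime_dvd Nat.card_pos.ne'
    intro d hd hdvd
    have : Fact d.Prime := ⟨hd⟩
    obtain ⟨x, hx⟩ := exists_prime_orderOf_dvd_card' (G := K) d hdvd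
    have hx' : orderOf (x : T) = d := by rw [Subgroup.orderOf_coe, hx]
    rw [← hx']
    exact h x x.2 (by rw [hx']; exact hd)
  exact IsPGroup.of_card hcard

theorem exists_prime_pow [Finite T] {y : T} (hy : y ≠ 1) :
    ∃ k : ℕ, (orderOf (y ^ k)).Prime := by
  have h1 : orderOf y ≠ 1 := fun h => hy (orderOf_eq_one_iff.1 h)
  have hr := Nat.minFac_prime h1
  refine ⟨orderOf y / (orderOf y).minFac, ?_⟩
  rw [orderOf_pow_orderOf_div (orderOf_pos y).ne' (Nat.minFac_dvd _)]
  exact hr

theorem orderOf_of_mem_sylow {p : ℕ} [Fact p.Prime] (P : Sylow p T) {z : T} (hz : z ∈ P) :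
    ∃ k, orderOf z = p ^ k := by
  obtain ⟨k, hk⟩ := (IsPGroup.iff_orderOf.1 P.2) ⟨z, hz⟩
  exact ⟨k, by rw [← hk, ← Subgroup.orderOf_coe]⟩

namespace Rigid

variable (R : Rigid T)
include R

/-- The centraliser of a central element of a Sylow subgroup `P` is `P`, and `P` is not abelian. -/
theorem centralizer_central [Finite T] [IsSimpleGroup T] (hnc : ¬ ∀ a b : T, a * b = b * a) (p : ℕ)
    [Fact p.Prime] (P : Sylow p T) (z : T) (hzP : z ∈ P) (hz1 : z ≠ 1)
    (hzc : ∀ s ∈ P, Commute s z) :
    (∀ x, Commute x z → x ∈ P) ∧ ¬ (∀ a ∈ P, ∀ b ∈ P, Commute a b) := by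
  have hp : p.Prime := Fact.out
  have hPne : (P : Subgroup T) ≠ ⊥ := by
    intro h
    have : z ∈ (P : Subgroup T) := hzP
    rw [h, mem_bot] at this
    exact hz1 this
  obtain ⟨kz, hkz⟩ := orderOf_of_mem_sylow P hzP
  by_cases hq : ∃ x, Commute x z ∧ (orderOf x).Prime ∧ orderOf x ≠ p
  · exfalso
    obtain ⟨x, hxz, hxq, hxp⟩ := hq
    have hx1 : x ≠ 1 := by
      intro h; rw [h, orderOf_one] at hxq; exact Nat.not_prime_one hxq
    have hcop : (orderOf x).Coprime (orderOf z) := by
      rw [hkz]
      exact Nat.Coprime.pow_right _ ((Nat.coprime_primes hxq hp).2 hxp)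
    have hxz' := R.F2 hx1 hz1 hxz hcop
    have claim : ∀ y, y ≠ 1 → Commute y z → ∀ v, Commute v z → Commute v y := by
      intro y hy hyz v hvz
      obtain ⟨k, hk⟩ := exists_prime_pow hy
      have hyk1 : y ^ k ≠ 1 := by
        intro h; rw [h, orderOf_one] at hk; exact Nat.not_prime_one hk
      apply R.F3 y k hyk1
      have hykz : Commute (y ^ k) z := hyz.pow_left k
      by_cases hr : orderOf (y ^ k) = p
      · have hykx : Commute (y ^ k) x := (hxz' _).2 hykz
        have hc2 : (orderOf (y ^ k)).Coprime (orderOf x) :=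
          (Nat.coprime_primes hk hxq).2 (by rw [hr]; exact fun h => hxp h.symm)
        exact (R.F2 hyk1 hx1 hykx hc2 v).2 ((hxz' v).2 hvz)
      · have hc2 : (orderOf (y ^ k)).Coprime (orderOf z) := by
          rw [hkz]
          exact Nat.Coprime.pow_right _ ((Nat.coprime_primes hk hp).2 hr)
        exact (R.F2 hyk1 hz1 hykz hc2 v).2 hvz
    apply burnside hnc p P hPne
    intro n hn
    have hn' : n⁻¹ ∈ normalizer (P : Set T) := inv_mem hn
    have hy : n⁻¹ * z * n ∈ (P : Subgroup T) := by
      have := (mem_normalizer_iff.1 hn' z).1 hzP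
      simpa using this
    have hy1 : n⁻¹ * z * n ≠ 1 := by
      intro h
      apply hz1
      have : z = n * (n⁻¹ * z * n) * n⁻¹ := by group
      rw [this, h]; group
    have hnz : Commute n z := by
      apply R.F1 z hz1 n
      intro c hc
      have h1 : Commute c (n⁻¹ * z * n) := claim _ hy1 (hzc _ hy) c hc
      have h2 : n * c * n⁻¹ * z = n * (c * (n⁻¹ * z * n)) * n⁻¹ := by group
      have h3 : z * (n * c * n⁻¹) = n * ((n⁻¹ * z * n) * c) * n⁻¹ := by group
      show n * c * n⁻¹ * z = z * (n * c * n⁻¹)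
      rw [h2, h3, h1.eq]
    rw [mem_centralizer_iff]
    intro s hs
    by_cases hs1 : s = 1
    · rw [hs1]; simp
    · exact (claim s hs1 (hzc s hs) n hnz).eq.symm
  · push Not at hq
    have hpg : IsPGroup p (centralizer ({z} : Set T)) := by
      apply isPGroup_of_prime_orders
      intro x hx hxp
      exact hq x (mem_centralizer_singleton_iff.1 hx) hxp
    have hle : (P : Subgroup T) ≤ centralizer ({z} : Set T) := by
      intro s hs
      exact mem_centralizer_singleton_iff.2 (hzc s hs).eq
    have heq := P.is_maximal' hpg hle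
    have hmem : ∀ x, Commute x z → x ∈ P := by
      intro x hx
      have : x ∈ centralizer ({z} : Set T) := mem_centralizer_singleton_iff.2 hx.eq
      rw [heq] at this
      exact this
    refine ⟨hmem, ?_⟩
    intro hab
    apply burnside hnc p P hPne
    intro n hn
    have hnz : Commute n z := by
      apply R.F1 z hz1 n
      intro c hc
      exact hzc _ ((mem_normalizer_iff.1 hn c).1 (hmem c hc))
    rw [mem_centralizer_iff]
    intro s hs
    exact (hab n (hmem n hnz) s hs).eq.symm

end Rigid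

theorem eq_sylow_of_self_normalizing [Finite T] {p : ℕ} [Fact p.Prime] (Q : Subgroup T)
    (P : Sylow p T) (hQP : Q ≤ P) (hself : ∀ n, (∀ c ∈ Q, n * c * n⁻¹ ∈ Q) → n ∈ Q) :
    Q = P := by
  by_contra hne
  have hlt : Q.subgroupOf P < ⊤ := by
    rw [lt_top_iff_ne_top]
    intro h
    rw [subgroupOf_eq_top] at h
    exact hne (le_antisymm hQP h)
  have hnil : Group.IsNilpotent P := P.2.isNilpotent
  have h2 := Group.normalizerCondition_of_isNilpotent (G := P) _ hlt
  obtain ⟨n, hn, hnQ⟩ := SetLike.exists_of_lt h2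
  apply hnQ
  rw [mem_subgroupOf]
  apply hself
  intro c hc
  have h3 := (mem_normalizer_iff.1 hn ⟨c, hQP hc⟩).1 (by rw [mem_subgroupOf]; exact hc)
  rw [mem_subgroupOf] at h3
  exact h3

namespace Rigid

variable (R : Rigid T)
include R

/-- Every centraliser of a non-trivial element is a Sylow subgroup. -/
theorem centralizer_sylow [Finite T] [IsSimpleGroup T] (hnc : ¬ ∀ a b : T, a * b = b * a) (t : T)
    (ht : t ≠ 1) : ∃ p : ℕ, p.Prime ∧ ∃ P : Sylow p T, ∀ x, Commute x t ↔ x ∈ P := by
  obtain ⟨k, hk⟩ := exists_prime_pow ht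
  set p := orderOf (t ^ k) with hp
  have : Fact p.Prime := ⟨hk⟩
  have ht1 : t ^ k ≠ 1 := by
    intro h; rw [hp, h, orderOf_one] at hk; exact Nat.not_prime_one hk
  have hC : ∀ x, Commute x t ↔ Commute x (t ^ k) :=
    fun x => ⟨fun h => h.pow_right k, fun h => R.F3 t k ht1 x h⟩
  have hz : IsPGroup p (zpowers (t ^ k)) := by
    apply IsPGroup.of_card (n := 1)
    rw [Nat.card_zpowers, pow_one]
  obtain ⟨P₀, hP₀⟩ := hz.exists_le_sylow
  have htP₀ : t ^ k ∈ P₀ := hP₀ (mem_zpowers _)
  have hnt : Nontrivial P₀ := ⟨⟨⟨t ^ k, htP₀⟩, 1, fun h => ht1 (congrArg Subtype.val h)⟩⟩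
  have hcn : Nontrivial (center P₀) := P₀.2.center_nontrivial
  obtain ⟨z', hz'⟩ := exists_ne (1 : center P₀)
  set z : T := ((z' : P₀) : T) with hzdef
  have hzP : z ∈ P₀ := (z' : P₀).2
  have hz1 : z ≠ 1 := by
    intro h
    apply hz'
    apply Subtype.ext
    apply Subtype.ext
    exact h
  have hzc : ∀ s ∈ P₀, Commute s z := by
    intro s hs
    have := mem_center_iff.1 z'.2 ⟨s, hs⟩
    exact congrArg Subtype.val this
  obtain ⟨hCz, -⟩ := R.centralizer_central hnc p P₀ z hzP hz1 hzc
  have hQ : IsPGroup p (centralizer ({t ^ k} : Set T)) := by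
    apply isPGroup_of_prime_orders
    intro x hx hxq
    by_contra hne
    have hx1 : x ≠ 1 := by
      intro h; rw [h, orderOf_one] at hxq; exact Nat.not_prime_one hxq
    have hxt : Commute x (t ^ k) := mem_centralizer_singleton_iff.1 hx
    have hcop : (orderOf x).Coprime (orderOf (t ^ k)) := (Nat.coprime_primes hxq hk).2 hne
    have h1 : Commute z x := (R.F2 hx1 ht1 hxt hcop z).2 (hzc _ htP₀).symm
    obtain ⟨j, hj⟩ := orderOf_of_mem_sylow P₀ (hCz x h1.symm)
    rw [hj] at hxq hne
    have := Nat.Prime.eq_one_of_pow hxq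
    apply hne
    rw [this, pow_one]
  obtain ⟨P, hP⟩ := hQ.exists_le_sylow
  have hQP : centralizer ({t ^ k} : Set T) = P := by
    apply eq_sylow_of_self_normalizing _ P hP
    intro n hn
    rw [mem_centralizer_singleton_iff]
    apply (R.F1 (t ^ k) ht1 n _).eq
    intro c hc
    exact mem_centralizer_singleton_iff.1 (hn c (mem_centralizer_singleton_iff.2 hc.eq))
  refine ⟨p, hk, P, fun x => ?_⟩
  rw [hC]
  constructor
  · intro h
    have : x ∈ centralizer ({t ^ k} : Set T) := mem_centralizer_singleton_iff.2 h.eq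
    rw [hQP] at this
    exact this
  · intro h
    have : x ∈ centralizer ({t ^ k} : Set T) := by rw [hQP]; exact h
    exact mem_centralizer_singleton_iff.1 this

end Rigid

theorem sq_mul_card_center_le {P : Type*} [Group P] [Finite P] {p : ℕ} [Fact p.Prime]
    (hP : IsPGroup p P) (hnc : ¬ ∀ a b : P, a * b = b * a) :
    p ^ 2 * Nat.card (center P) ≤ Nat.card P := by
  have hp : p.Prime := Fact.out
  obtain ⟨n, hn⟩ := hP.index (center P)
  have hmul := (center P).card_mul_index
  have hn2 : 2 ≤ n := by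
    by_contra hlt
    apply hnc
    have hcyc : IsCyclic (P ⧸ center P) := by
      have hcard : Nat.card (P ⧸ center P) = p ^ n := hn
      interval_cases n
      · rw [pow_zero, Nat.card_eq_one_iff_unique] at hcard
        have := hcard.1
        exact isCyclic_of_subsingleton
      · rw [pow_one] at hcard
        exact isCyclic_of_prime_card hcard
    have := MonoidHom.isMulCommutative_of_isCyclic_of_ker_le_center (QuotientGroup.mk' (center P))
      (by rw [QuotientGroup.ker_mk'])
    exact fun a b => mul_comm' a b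
  rw [← hmul, hn, mul_comm]
  exact Nat.mul_le_mul_left _ (Nat.pow_le_pow_right hp.pos hn2)

namespace Rigid

variable (R : Rigid T)
include R

theorem card_bound [Finite T] [IsSimpleGroup T] (hnc : ¬ ∀ a b : T, a * b = b * a) (p : ℕ)
    [Fact p.Prime] (hpd : p ∣ Nat.card T) :
    p ^ 2 * (Nat.card {t : T // t ≠ 1 ∧ ∃ P : Sylow p T, ∀ x, Commute x t ↔ x ∈ P} + 1)
      ≤ Nat.card T := by
  classical
  have hp : p.Prime := Fact.out
  have := Fintype.ofFinite (Sylow p T)
  set X := {t : T // t ≠ 1 ∧ ∃ P : Sylow p T, ∀ x, Commute x t ↔ x ∈ P} with hX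
  let f : X → Sylow p T := fun t => t.2.2.choose
  have hf : ∀ t : X, ∀ x, Commute x t.1 ↔ x ∈ f t := fun t => t.2.2.choose_spec
  set c := p ^ (Nat.card T).factorization p with hc
  have hcardP : ∀ P : Sylow p T, Nat.card P = c := fun P => P.card_eq_multiplicity
  have hc1 : 1 < c := by
    apply Nat.one_lt_pow _ hp.one_lt
    exact (hp.factorization_pos_of_dvd Nat.card_pos.ne' hpd).ne'
  -- structure of each Sylow subgroup
  have hstruct : ∀ P : Sylow p T, (¬ ∀ a b : P, a * b = b * a) ∧
      normalizer ((P : Subgroup T) : Set T) = P := by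
    intro P
    have hnt : Nontrivial P := by
      rw [← Finite.one_lt_card_iff_nontrivial, hcardP]; exact hc1
    have hcn : Nontrivial (center P) := P.2.center_nontrivial
    obtain ⟨z', hz'⟩ := exists_ne (1 : center P)
    set z : T := ((z' : P) : T) with hzdef
    have hzP : z ∈ P := (z' : P).2
    have hz1 : z ≠ 1 := by
      intro h
      apply hz'
      apply Subtype.ext
      apply Subtype.ext
      exact h
    have hzc : ∀ s ∈ P, Commute s z := by
      intro s hs
      have := mem_center_iff.1 z'.2 ⟨s, hs⟩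
      exact congrArg Subtype.val this
    obtain ⟨hCz, hnab⟩ := R.centralizer_central hnc p P z hzP hz1 hzc
    refine ⟨fun h => hnab (fun a ha b hb => congrArg Subtype.val (h ⟨a, ha⟩ ⟨b, hb⟩)), ?_⟩
    apply le_antisymm _ le_normalizer
    intro n hn
    apply hCz
    apply R.F1 z hz1 n
    intro c hc
    exact hzc _ ((mem_normalizer_iff.1 hn c).1 (hCz c hc))
  have hfib : ∀ P : Sylow p T, p ^ 2 * (Nat.card {t : X // f t = P} + 1) ≤ c := by
    intro P
    have h1 := sq_mul_card_center_le P.2 (hstruct P).1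
    rw [hcardP] at h1
    refine le_trans (Nat.mul_le_mul_left _ ?_) h1
    let g : Option {t : X // f t = P} → center P := fun o =>
      match o with
      | none => 1
      | some t => ⟨⟨t.1.1, by
          have h0 : t.1.1 ∈ f t.1 := (hf t.1 t.1.1).1 (Commute.refl _)
          rw [t.2] at h0
          exact h0⟩, by
          rw [mem_center_iff]
          intro s
          apply Subtype.ext
          have : Commute (s : T) t.1.1 := by
            rw [hf, t.2]; exact s.2
          exact this.eq⟩
    have hg : Function.Injective g := by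
      intro a b hab
      match a, b with
      | none, none => rfl
      | none, some t =>
        exfalso
        have : (1 : T) = t.1.1 := congrArg (fun z : center P => ((z : P) : T)) hab
        exact t.1.2.1 this.symm
      | some t, none =>
        exfalso
        have : t.1.1 = (1 : T) := congrArg (fun z : center P => ((z : P) : T)) hab
        exact t.1.2.1 this
      | some t, some t' =>
        have : t.1.1 = t'.1.1 := congrArg (fun z : center P => ((z : P) : T)) hab
        rw [Subtype.ext (Subtype.ext this)]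
    have := Nat.card_le_card_of_injective g hg
    rwa [Finite.card_option] at this
  have hsum : Nat.card X = ∑ P : Sylow p T, Nat.card {t : X // f t = P} := by
    rw [← Nat.card_sigma]
    exact (Nat.card_congr (Equiv.sigmaFiberEquiv f)).symm
  obtain ⟨P₀⟩ : Nonempty (Sylow p T) := inferInstance
  have hn : Nat.card (Sylow p T) * c = Nat.card T := by
    have h0 : (normalizer (P₀ : Set T)) = P₀ := (hstruct P₀).2
    rw [P₀.card_eq_index_normalizer, h0, ← hcardP P₀, mul_comm]
    exact (P₀ : Subgroup T).card_mul_index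
  have hn1 : 1 ≤ Nat.card (Sylow p T) := Nat.card_pos
  calc p ^ 2 * (Nat.card X + 1) ≤ p ^ 2 * (Nat.card X + Nat.card (Sylow p T)) :=
        Nat.mul_le_mul_left _ (by omega)
    _ = ∑ P : Sylow p T, p ^ 2 * (Nat.card {t : X // f t = P} + 1) := by
        rw [← Finset.mul_sum, Finset.sum_add_distrib, ← hsum, Finset.sum_const, Finset.card_univ,
          smul_eq_mul, mul_one, Nat.card_eq_fintype_card (α := Sylow p T)]
    _ ≤ ∑ _P : Sylow p T, c := Finset.sum_le_sum (fun P _ => hfib P)
    _ = Nat.card T := by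
        rw [Finset.sum_const, Finset.card_univ, smul_eq_mul, ← Nat.card_eq_fintype_card, hn]

end Rigid

/-- **Main result**: a finite non-abelian simple group does not have rigid centralisers. -/
theorem no_rigid_centralizers [Finite T] [IsSimpleGroup T] (hnc : ¬ ∀ a b : T, a * b = b * a)
    (R : Rigid T) : False := by
  classical
  set n := Nat.card T with hn
  have hn1 : 1 < n := Finite.one_lt_card
  set S := n.primeFactors with hS
  let X : ℕ → Type _ := fun p => {t : T // t ≠ 1 ∧ ∃ P : Sylow p T, ∀ x, Commute x t ↔ x ∈ P}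
  have hXfin : ∀ p, Finite (X p) := fun p => inferInstanceAs (Finite {t : T // _})
  -- every non-trivial element lies in some `X p`
  have hex : ∀ t : {t : T // t ≠ 1}, ∃ p : S, ∃ P : Sylow p T, ∀ x, Commute x t.1 ↔ x ∈ P := by
    intro t
    obtain ⟨p, hp, P, hP⟩ := R.centralizer_sylow hnc t.1 t.2
    have : Fact p.Prime := ⟨hp⟩
    have htP : t.1 ∈ P := (hP _).1 (Commute.refl _)
    obtain ⟨k, hk⟩ := orderOf_of_mem_sylow P htP
    have hk0 : k ≠ 0 := by
      intro h
      rw [h, pow_zero] at hk
      exact t.2 (orderOf_eq_one_iff.1 hk)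
    have hpd : p ∣ n := by
      have h1 : orderOf t.1 ∣ n := orderOf_dvd_natCard t.1
      rw [hk] at h1
      exact (dvd_pow_self p hk0).trans h1
    exact ⟨⟨p, Nat.mem_primeFactors.2 ⟨hp, hpd, by omega⟩⟩, P, hP⟩
  let F : {t : T // t ≠ 1} → Σ p : S, X p := fun t =>
    ⟨(hex t).choose, ⟨t.1, t.2, (hex t).choose_spec⟩⟩
  have hF : Function.Injective F := by
    intro t t' h
    have h1 : (F t).2.1 = (F t').2.1 := by rw [h]
    exact Subtype.ext h1
  have hcard1 : n - 1 ≤ ∑ p ∈ S, Nat.card (X p) := by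
    have h1 := Nat.card_le_card_of_injective F hF
    rw [Nat.card_sigma, Finset.sum_coe_sort S (fun p => Nat.card (X p))] at h1
    have h2 : Nat.card {t : T // t ≠ 1} + 1 = n := by
      rw [← Finite.card_option, Nat.card_congr (Equiv.optionSubtypeNe (1 : T))]
    omega
  have hcard2 : ∀ p ∈ S, p ^ 2 * (Nat.card (X p) + 1) ≤ n := by
    intro p hp
    have hp' := Nat.mem_primeFactors.1 hp
    have : Fact p.Prime := ⟨hp'.1⟩
    exact R.card_bound hnc p hp'.2.1
  have hSne : S.Nonempty := by
    rw [hS, Nat.nonempty_primeFactors]; exact hn1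
  have hb : ∀ p ∈ S, (Nat.card (X p) : ℚ) ≤ (n : ℚ) * ((p : ℚ) ^ 2)⁻¹ - 1 := by
    intro p hp
    have h1 := hcard2 p hp
    have hp0 : (0 : ℚ) < (p : ℚ) ^ 2 := by
      have := (Nat.mem_primeFactors.1 hp).1.pos
      positivity
    have h2 : ((p : ℚ) ^ 2) * ((Nat.card (X p) : ℚ) + 1) ≤ (n : ℚ) := by exact_mod_cast h1
    rw [← div_eq_mul_inv, le_sub_iff_add_le, le_div_iff₀ hp0, mul_comm]
    exact h2
  have hsub : S ⊆ Finset.Ioc 1 n := by
    intro p hp
    have hp' := Nat.mem_primeFactors.1 hp
    rw [Finset.mem_Ioc]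
    exact ⟨hp'.1.one_lt, Nat.le_of_dvd (by omega) hp'.2.1⟩
  have hsq : ∑ p ∈ S, (((p : ℕ) : ℚ) ^ 2)⁻¹ ≤ 1 - (n : ℚ)⁻¹ := by
    have h1 := sum_Ioc_inv_sq_le_sub (α := ℚ) (k := 1) (n := n) one_ne_zero hn1.le
    have h2 : ∑ p ∈ S, (((p : ℕ) : ℚ) ^ 2)⁻¹ ≤ ∑ i ∈ Finset.Ioc 1 n, ((i : ℚ) ^ 2)⁻¹ :=
      Finset.sum_le_sum_of_subset_of_nonneg hsub (fun i _ _ => by positivity)
    simpa using h2.trans h1
  have hn0 : (0 : ℚ) < n := by exact_mod_cast (by omega : 0 < n)
  have hfinal : ((n : ℚ) - 1) ≤ (n : ℚ) - 1 - S.card := by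
    calc ((n : ℚ) - 1) = ((n - 1 : ℕ) : ℚ) := by
          rw [Nat.cast_sub hn1.le]; simp
      _ ≤ ((∑ p ∈ S, Nat.card (X p) : ℕ) : ℚ) := by exact_mod_cast hcard1
      _ = ∑ p ∈ S, (Nat.card (X p) : ℚ) := by push_cast; rfl
      _ ≤ ∑ p ∈ S, ((n : ℚ) * ((p : ℚ) ^ 2)⁻¹ - 1) := Finset.sum_le_sum hb
      _ = (n : ℚ) * ∑ p ∈ S, ((p : ℚ) ^ 2)⁻¹ - S.card := by
          rw [Finset.sum_sub_distrib, Finset.mul_sum, Finset.sum_const, nsmul_eq_mul, mul_one]
      _ ≤ (n : ℚ) * (1 - (n : ℚ)⁻¹) - S.card := by
          have := mul_le_mul_of_nonneg_left hsq hn0.le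
          linarith
      _ = (n : ℚ) - 1 - S.card := by
          rw [mul_sub, mul_one, mul_inv_cancel₀ hn0.ne']
  have hSpos : (0 : ℚ) < S.card := by exact_mod_cast hSne.card_pos
  linarith

end Cfsg.Agent.Lib.Helper58.EP2
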