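import Cfsg.Agent.Lib.Helper76.FS.Defs

set_option autoImplicit false

universe u

namespace Cfsg.Agent.Lib.Helper58.FS

open Cfsg Cfsg.Agent.Lib.Lead Cfsg.Agent.Lib.Helper76.FS

theorem mem_dz_succ (n : ℕ) (Q : Type u) [Group Q] (x : Q) :
    x ∈ dz (n + 1) Q ↔ ∃ h : x ∈ Subgroup.centralizer (zjA Q : Set Q),
      (QuotientGroup.mk' ((zjA Q).subgroupOf (Subgroup.centralizer (zjA Q : Set Q))) ⟨x, h⟩) ∈
        dz n (↥(Subgroup.centralizer (zjA Q : Set Q)) ⧸
          (zjA Q).subgroupOf (Subgroup.centralizer (zjA Q : Set Q))) := by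
  rw [dz_succ]
  constructor
  · rintro ⟨c, hc, rfl⟩
    exact ⟨c.2, hc⟩
  · rintro ⟨h, hx⟩
    exact ⟨⟨x, h⟩, hx, rfl⟩

/-- an isomorphism carrying `Z` to `Z'` carries the centralizers -/
def centEquiv {Q R : Type*} [Group Q] [Group R] (φ : Q ≃* R) (Z : Subgroup Q) (Z' : Subgroup R)
    (h : Z.map φ.toMonoidHom = Z') :
    ↥(Subgroup.centralizer (Z : Set Q)) ≃* ↥(Subgroup.centralizer (Z' : Set R)) where
  toFun c := ⟨φ c, by
    rw [Subgroup.mem_centralizer_iff]
    intro y hy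
    rw [SetLike.mem_coe, ← h] at hy
    obtain ⟨z, hz, rfl⟩ := hy
    have := Subgroup.mem_centralizer_iff.1 c.2 z hz
    show φ z * φ c = φ c * φ z
    rw [← map_mul, ← map_mul, this]⟩
  invFun c := ⟨φ.symm c, by
    rw [Subgroup.mem_centralizer_iff]
    intro z hz
    have hz' : φ z ∈ Z' := by rw [← h]; exact Subgroup.mem_map_of_mem φ.toMonoidHom hz
    have := Subgroup.mem_centralizer_iff.1 c.2 (φ z) hz'
    apply φ.injective
    rw [map_mul, map_mul, MulEquiv.apply_symm_apply, this]⟩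
  left_inv c := Subtype.ext (φ.symm_apply_apply _)
  right_inv c := Subtype.ext (φ.apply_symm_apply _)
  map_mul' a b := Subtype.ext (map_mul φ _ _)

theorem centEquiv_map {Q R : Type*} [Group Q] [Group R] (φ : Q ≃* R) (Z : Subgroup Q)
    (Z' : Subgroup R) (h : Z.map φ.toMonoidHom = Z') :
    (Z.subgroupOf (Subgroup.centralizer (Z : Set Q))).map (centEquiv φ Z Z' h) =
      Z'.subgroupOf (Subgroup.centralizer (Z' : Set R)) := by
  ext c
  constructor
  · rintro ⟨z, hz, rfl⟩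
    rw [Subgroup.mem_subgroupOf]
    have h1 : φ (z : Q) ∈ Z.map φ.toMonoidHom := Subgroup.mem_map_of_mem φ.toMonoidHom hz
    rw [h] at h1
    exact h1
  · intro hc
    rw [Subgroup.mem_subgroupOf] at hc
    have hc' : (c : R) ∈ Z.map φ.toMonoidHom := by rw [h]; exact hc
    obtain ⟨z, hz, hzc⟩ := hc'
    refine ⟨(centEquiv φ Z Z' h).symm c, ?_, (centEquiv φ Z Z' h).apply_symm_apply c⟩
    rw [SetLike.mem_coe, Subgroup.mem_subgroupOf]
    have : (((centEquiv φ Z Z' h).symm c : ↥(Subgroup.centralizer (Z : Set Q))) : Q) = z := by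
      show φ.symm c = z
      rw [← hzc]
      exact φ.symm_apply_apply z
    rw [this]
    exact hz

theorem dz_map_le (n : ℕ) : ∀ {Q R : Type u} [Group Q] [Group R] (φ : Q ≃* R),
    (dz n Q).map φ.toMonoidHom ≤ dz n R := by
  induction n with
  | zero =>
    intro Q R _ _ φ
    rw [dz_zero, Subgroup.map_bot]
    exact bot_le
  | succ n ih =>
    intro Q R _ _ φ
    rintro _ ⟨x, hx, rfl⟩
    obtain ⟨h, hx⟩ := (mem_dz_succ n Q x).1 hx
    rw [mem_dz_succ]
    let eC := centEquiv φ (zjA Q) (zjA R) (zjA_map φ)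
    let ebar := QuotientGroup.congr _ _ eC (centEquiv_map φ (zjA Q) (zjA R) (zjA_map φ))
    refine ⟨(eC ⟨x, h⟩).2, ?_⟩
    exact ih ebar (Subgroup.mem_map_of_mem ebar.toMonoidHom hx)

/-- E1 -/
theorem dz_map (n : ℕ) {Q R : Type u} [Group Q] [Group R] (φ : Q ≃* R) :
    (dz n Q).map φ.toMonoidHom = dz n R := by
  apply le_antisymm (dz_map_le n φ)
  intro y hy
  exact ⟨φ.symm y, dz_map_le n φ.symm (Subgroup.mem_map_of_mem φ.symm.toMonoidHom hy), by simp⟩

end Cfsg.Agent.Lib.Helper58.FS
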