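import Cfsg.Agent.Lib.Helper58.FSE1

set_option autoImplicit false

universe u

namespace Cfsg.Agent.Lib.Helper58.FS

open Cfsg Cfsg.Agent.Lib.Lead Cfsg.Agent.Lib.Helper76.FS

theorem zjA_le_centralizer (Q : Type u) [Group Q] :
    zjA Q ≤ Subgroup.centralizer (zjA Q : Set Q) := by
  intro z hz
  rw [Subgroup.mem_centralizer_iff]
  intro y hy
  have h1 := (Subgroup.mem_inf.1 hz).2
  have h2 := (Subgroup.mem_inf.1 hy).1
  exact Subgroup.mem_centralizer_iff.1 h1 y h2

/-- E2 -/
theorem zjA_le_dz_succ (n : ℕ) (Q : Type u) [Group Q] : zjA Q ≤ dz (n + 1) Q := by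
  intro z hz
  rw [mem_dz_succ]
  refine ⟨zjA_le_centralizer Q hz, ?_⟩
  have : (QuotientGroup.mk' ((zjA Q).subgroupOf (Subgroup.centralizer (zjA Q : Set Q)))
      ⟨z, zjA_le_centralizer Q hz⟩) = 1 := by
    rw [QuotientGroup.mk'_apply, QuotientGroup.eq_one_iff, Subgroup.mem_subgroupOf]
    exact hz
  rw [this]
  exact Subgroup.one_mem _

theorem centralizer_dz_le {p : ℕ} [Fact p.Prime] (n : ℕ) (Q : Type u) [Group Q] [Finite Q]
    (hQ : IsPGroup p Q) (hn : Nat.card Q ≤ 2 ^ n) :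
    Subgroup.centralizer (dz n Q : Set Q) ≤ dz n Q := by
  induction n generalizing Q with
  | zero =>
    have h1 : Nat.card Q = 1 := le_antisymm (by simpa using hn) Nat.card_pos
    have h2 : Subsingleton Q := (Nat.card_eq_one_iff_unique.1 h1).1
    intro x _
    rw [Subsingleton.elim x 1]
    exact Subgroup.one_mem _
  | succ n ih =>
    rcases subsingleton_or_nontrivial Q with h2 | h2
    · intro x _
      rw [Subsingleton.elim x 1]
      exact Subgroup.one_mem _
    have hZ : zjA Q ≠ ⊥ := zjA_ne_bot Q hQ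
    set C := Subgroup.centralizer (zjA Q : Set Q) with hC
    set ZC := (zjA Q).subgroupOf C with hZC
    have hcard1 : Nat.card (↥C ⧸ ZC) * Nat.card ZC = Nat.card C :=
      (Subgroup.card_eq_card_quotient_mul_card_subgroup ZC).symm
    have hcard2 : Nat.card C ≤ Nat.card Q := Subgroup.card_le_card_group C
    have hcard3 : 2 ≤ Nat.card ZC := by
      have h3 : Nat.card ZC = Nat.card (zjA Q) :=
        Nat.card_congr (Subgroup.subgroupOfEquivOfLe (zjA_le_centralizer Q)).toEquiv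
      rw [h3]
      have h4 : Nat.card (zjA Q) ≠ 1 := fun h => hZ (Subgroup.card_eq_one.1 h)
      have h5 : 0 < Nat.card (zjA Q) := Nat.card_pos
      omega
    have hcard4 : Nat.card (↥C ⧸ ZC) ≤ 2 ^ n := by
      have h6 : Nat.card (↥C ⧸ ZC) * 2 ≤ 2 ^ n * 2 := by
        calc Nat.card (↥C ⧸ ZC) * 2 ≤ Nat.card (↥C ⧸ ZC) * Nat.card ZC :=
              Nat.mul_le_mul_left _ hcard3
          _ = Nat.card C := hcard1
          _ ≤ Nat.card Q := hcard2
          _ ≤ 2 ^ (n + 1) := hn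
          _ = 2 ^ n * 2 := pow_succ 2 n
      exact Nat.le_of_mul_le_mul_right h6 (by norm_num)
    have hp : IsPGroup p (↥C ⧸ ZC) := (hQ.to_subgroup C).to_quotient ZC
    have ih' := ih (↥C ⧸ ZC) hp hcard4
    intro x hx
    have hxC : x ∈ C := by
      rw [hC, Subgroup.mem_centralizer_iff]
      intro z hz
      exact Subgroup.mem_centralizer_iff.1 hx z (zjA_le_dz_succ n Q hz)
    rw [mem_dz_succ]
    refine ⟨hxC, ih' ?_⟩
    rw [Subgroup.mem_centralizer_iff]
    intro y hy
    obtain ⟨c, rfl⟩ := QuotientGroup.mk'_surjective ZC y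
    have hc : (c : Q) ∈ dz (n + 1) Q := (mem_dz_succ n Q c).2 ⟨c.2, hy⟩
    have h7 := Subgroup.mem_centralizer_iff.1 hx c hc
    rw [← map_mul, ← map_mul]
    congr 1
    exact Subtype.ext h7

end Cfsg.Agent.Lib.Helper58.FS
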