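import Cfsg.Agent.Lib.Helper58.FSE1

set_option autoImplicit false

universe u

namespace Cfsg.Agent.Lib.Helper58.FS

open Cfsg Cfsg.Agent.Lib.Lead Cfsg.Agent.Lib.Helper76.FS

section
variable {X : Type u} [Group X] (T : Subgroup X)

theorem cta_eq : centerThompsonAOf T = (zjA ↥T).map T.subtype := (inducedFunctor_zjA T).symm

theorem mem_cta_iff (t : ↥T) : (t : X) ∈ centerThompsonAOf T ↔ t ∈ zjA ↥T := by
  rw [cta_eq]
  constructor
  · rintro ⟨s, hs, hst⟩
    have : s = t := Subtype.ext hst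
    rw [← this]; exact hs
  · intro h
    exact ⟨t, h, rfl⟩

theorem cta_le : centerThompsonAOf T ≤ T := by
  rw [cta_eq]
  rintro _ ⟨s, -, rfl⟩
  exact s.2

theorem mem_cent_iff (t : ↥T) : (t : X) ∈ Subgroup.centralizer (centerThompsonAOf T : Set X) ↔
    t ∈ Subgroup.centralizer (zjA ↥T : Set ↥T) := by
  rw [Subgroup.mem_centralizer_iff, Subgroup.mem_centralizer_iff]
  constructor
  · intro h z hz
    exact Subtype.ext (h z ((mem_cta_iff T z).2 hz))
  · intro h z hz
    have hzT : z ∈ T := cta_le T hz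
    have := h ⟨z, hzT⟩ ((mem_cta_iff T ⟨z, hzT⟩).1 hz)
    exact congrArg Subtype.val this

/-- the comparison homomorphism `C_T(Z) → (T ∩ C_X(Z)) Z / Z` -/
def cmpHom : ↥(Subgroup.centralizer (zjA ↥T : Set ↥T)) →*
    ↥((T.subgroupOf (Subgroup.centralizer (centerThompsonAOf T : Set X))).map
      (QuotientGroup.mk' ((centerThompsonAOf T).subgroupOf
        (Subgroup.centralizer (centerThompsonAOf T : Set X))))) where
  toFun c := ⟨QuotientGroup.mk' _ ⟨((c : ↥T) : X), (mem_cent_iff T c).2 c.2⟩,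
    Subgroup.mem_map_of_mem _ (by rw [Subgroup.mem_subgroupOf]; exact (c : ↥T).2)⟩
  map_one' := rfl
  map_mul' _ _ := rfl

theorem cmpHom_surjective : Function.Surjective (cmpHom T) := by
  rintro ⟨_, ⟨y, hy, rfl⟩⟩
  have hyT : (y : X) ∈ T := hy
  exact ⟨⟨⟨y, hyT⟩, (mem_cent_iff T ⟨y, hyT⟩).1 y.2⟩, rfl⟩

theorem cmpHom_ker : (cmpHom T).ker =
    (zjA ↥T).subgroupOf (Subgroup.centralizer (zjA ↥T : Set ↥T)) := by
  ext c
  rw [MonoidHom.mem_ker, Subgroup.mem_subgroupOf, ← mem_cta_iff]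
  constructor
  · intro h
    have h1 := congrArg Subtype.val h
    have h2 : QuotientGroup.mk' ((centerThompsonAOf T).subgroupOf
        (Subgroup.centralizer (centerThompsonAOf T : Set X)))
        ⟨((c : ↥T) : X), (mem_cent_iff T c).2 c.2⟩ = 1 := h1
    rw [QuotientGroup.mk'_apply, QuotientGroup.eq_one_iff, Subgroup.mem_subgroupOf] at h2
    exact h2
  · intro h
    apply Subtype.ext
    show QuotientGroup.mk' ((centerThompsonAOf T).subgroupOf
        (Subgroup.centralizer (centerThompsonAOf T : Set X)))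
        ⟨((c : ↥T) : X), (mem_cent_iff T c).2 c.2⟩ = 1
    rw [QuotientGroup.mk'_apply, QuotientGroup.eq_one_iff, Subgroup.mem_subgroupOf]
    exact h

/-- the comparison isomorphism -/
noncomputable def cmpEquiv : (↥(Subgroup.centralizer (zjA ↥T : Set ↥T)) ⧸
      (zjA ↥T).subgroupOf (Subgroup.centralizer (zjA ↥T : Set ↥T))) ≃*
    ↥((T.subgroupOf (Subgroup.centralizer (centerThompsonAOf T : Set X))).map
      (QuotientGroup.mk' ((centerThompsonAOf T).subgroupOf
        (Subgroup.centralizer (centerThompsonAOf T : Set X))))) :=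
  (QuotientGroup.quotientMulEquivOfEq (cmpHom_ker T).symm).trans
    (QuotientGroup.quotientKerEquivOfSurjective (cmpHom T) (cmpHom_surjective T))

theorem cmpEquiv_mk (c : ↥(Subgroup.centralizer (zjA ↥T : Set ↥T))) :
    cmpEquiv T (QuotientGroup.mk' _ c) = cmpHom T c := rfl

end

/-- E3 -/
theorem inducedFunctor_dz_succ (n : ℕ) {X : Type u} [Group X] (T : Subgroup X) :
    inducedFunctor (dz (n + 1)) T =
      ((inducedFunctor (dz n) ((T.subgroupOf (Subgroup.centralizer (centerThompsonAOf T : Set X))).map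
        (QuotientGroup.mk' ((centerThompsonAOf T).subgroupOf (Subgroup.centralizer (centerThompsonAOf T : Set X)))))).comap
        (QuotientGroup.mk' ((centerThompsonAOf T).subgroupOf (Subgroup.centralizer (centerThompsonAOf T : Set X))))).map
        (Subgroup.centralizer (centerThompsonAOf T : Set X)).subtype := by
  have hmap := dz_map n (cmpEquiv T)
  ext x
  constructor
  · rintro ⟨t, ht, rfl⟩
    obtain ⟨h, hmem⟩ := (mem_dz_succ n ↥T t).1 ht
    refine ⟨⟨(t : X), (mem_cent_iff T t).2 h⟩, ?_, rfl⟩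
    rw [SetLike.mem_coe, Subgroup.mem_comap]
    refine ⟨cmpHom T ⟨t, h⟩, ?_, rfl⟩
    rw [SetLike.mem_coe, ← hmap, ← cmpEquiv_mk]
    exact Subgroup.mem_map_of_mem (cmpEquiv T).toMonoidHom hmem
  · rintro ⟨y, hy, rfl⟩
    rw [SetLike.mem_coe, Subgroup.mem_comap] at hy
    obtain ⟨b, hb, hby⟩ := hy
    rw [SetLike.mem_coe, ← hmap] at hb
    obtain ⟨a, ha, rfl⟩ := hb
    obtain ⟨c, rfl⟩ := QuotientGroup.mk'_surjective _ a
    have h1 : QuotientGroup.mk' ((centerThompsonAOf T).subgroupOf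
        (Subgroup.centralizer (centerThompsonAOf T : Set X)))
        ⟨((c : ↥T) : X), (mem_cent_iff T c).2 c.2⟩ = QuotientGroup.mk' _ y := hby
    rw [QuotientGroup.mk'_apply, QuotientGroup.mk'_apply, QuotientGroup.eq,
      Subgroup.mem_subgroupOf] at h1
    have h2 : ((c : ↥T) : X)⁻¹ * (y : X) ∈ centerThompsonAOf T := h1
    have hyT : (y : X) ∈ T := by
      have := T.mul_mem (c : ↥T).2 (cta_le T h2)
      rwa [mul_inv_cancel_left] at this
    have hyC : (⟨y, hyT⟩ : ↥T) ∈ Subgroup.centralizer (zjA ↥T : Set ↥T) :=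
      (mem_cent_iff T ⟨y, hyT⟩).1 y.2
    refine ⟨⟨y, hyT⟩, ?_, rfl⟩
    rw [SetLike.mem_coe, mem_dz_succ]
    refine ⟨hyC, ?_⟩
    have h3 : QuotientGroup.mk' ((zjA ↥T).subgroupOf (Subgroup.centralizer (zjA ↥T : Set ↥T)))
        ⟨⟨y, hyT⟩, hyC⟩ = QuotientGroup.mk' _ c := by
      rw [eq_comm, QuotientGroup.mk'_apply, QuotientGroup.mk'_apply, QuotientGroup.eq,
        Subgroup.mem_subgroupOf, ← mem_cta_iff]
      exact h2
    rw [h3]
    exact ha

end Cfsg.Agent.Lib.Helper58.FS
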